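import Mathlib
import Cfsg.Agent.Lib.Helper70.S3701.Defs
import Cfsg.Agent.Lib.Helper3.ExcPair

/-!
# S3701, package `PkgExcGen`: the exceptional pair of `Ind_C^G (1 - ν) = 1 + E - F`
-/

set_option autoImplicit false

namespace Cfsg.Agent.Lib.Helper3.S3701

universe u

open scoped ComplexConjugate
open Cfsg.Agent.Lib.Helper3

/-- A unit of `ℂ` of order three satisfies `ζ + ζ⁻¹ = -1`. -/
theorem unit_add_inv_of_cube {ζ : ℂˣ} (h3' : ζ ^ 3 = 1) (hne' : ζ ≠ 1) :
    ((ζ : ℂˣ) : ℂ) + ((ζ⁻¹ : ℂˣ) : ℂ) = -1 := by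
  have h3 : (ζ : ℂ) ^ 3 = 1 := by
    rw [← Units.val_pow_eq_pow_val, h3', Units.val_one]
  have hne : (ζ : ℂ) ≠ 1 := fun h => hne' (Units.ext h)
  have h2 : (ζ : ℂ) ^ 2 + ζ + 1 = 0 := by
    have : ((ζ : ℂ) - 1) * ((ζ : ℂ) ^ 2 + ζ + 1) = 0 := by linear_combination h3
    rcases mul_eq_zero.1 this with h | h
    · exact absurd (sub_eq_zero.1 h) hne
    · exact h
  have hinv : ((ζ⁻¹ : ℂˣ) : ℂ) = (ζ : ℂ) ^ 2 := by
    rw [Units.val_inv_eq_inv_val]
    exact inv_eq_of_mul_eq_one_right (by linear_combination h3)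
  rw [hinv]
  linear_combination h2

/-- A unit with `ζ ^ 3 = 1` and `ζ ^ 2 = 1` is trivial. -/
theorem unit_eq_one_of_cube_of_sq {ζ : ℂˣ} (h3 : ζ ^ 3 = 1) (h2 : ζ ^ 2 = 1) : ζ = 1 := by
  calc ζ = ζ ^ 3 * (ζ ^ 2)⁻¹ := by group
    _ = 1 := by rw [h3, h2]; simp

/-- **Package `PkgExcGen`.** -/
theorem pkgExcGen : Cfsg.Agent.Lib.Helper70.S3701.PkgExcGen.{u} := by
  intro G _ _ C N ν hCN hcard hnorm hinv hTI hcube hne
  classical
  let _ : Fintype G := Fintype.ofFinite G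
  have hsq : ∃ y : C, (ν y) ^ 2 ≠ 1 := by
    obtain ⟨y, hy⟩ := hne
    exact ⟨y, fun h => hy (unit_eq_one_of_cube_of_sq (hcube y) h)⟩
  obtain ⟨hn3, hn1⟩ := exc_theta_norm C N ν hCN hcard hnorm hinv hTI hsq
  have hgen : Cfsg.IsGeneralizedCharacter G (Cfsg.indFun C (excF C ν)) := by
    have e : excF C ν = (fun _ : C => (1 : ℂ)) - (fun y : C => ((ν y : ℂˣ) : ℂ)) := by
      funext y
      rfl
    rw [e, indFun_sub]
    exact ⟨_, _, Cfsg.Agent.Lib.Helper75.isCharacter_indFun C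
        Cfsg.Agent.Lib.Helper80.isCharacter_one,
      Cfsg.Agent.Lib.Helper75.isCharacter_indFun C
        (Cfsg.Agent.Lib.Helper15.isCharacter_of_hom ν), rfl⟩
  have h1 : Cfsg.indFun C (excF C ν) 1 = 0 := by
    have := exc_theta_apply C N ν hCN hcard hnorm hinv hTI 1
    rw [map_one] at this
    simp only [OneMemClass.coe_one, Units.val_one, inv_one] at this
    rw [this]
    norm_num
  obtain ⟨χ₁, χ₂, hχ₁, hχ₂, -, -, hdeg, hval⟩ :=
    gen_char_norm_three _ hgen h1 hn3 hn1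
  refine ⟨χ₂, χ₁, hχ₂, hχ₁, hdeg, ?_, ?_⟩
  · intro g hg
    have h0 : Cfsg.indFun C (excF C ν) g = 0 := by
      unfold Cfsg.indFun
      rw [Finset.sum_eq_zero, mul_zero]
      intro x _
      by_cases hmem : x⁻¹ * g * x ∈ C
      · rw [extendByZero_of_mem C _ hmem]
        unfold excF
        by_cases hν1 : ν ⟨x⁻¹ * g * x, hmem⟩ = 1
        · rw [hν1]
          simp
        · exfalso
          apply hg x⁻¹ ⟨x⁻¹ * g * x, hmem⟩ hν1
          rw [inv_inv]
      · exact extendByZero_of_not_mem C _ hmem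
    have := hval g
    rw [h0] at this
    linear_combination this
  · intro y hy
    have h2 := hval (y : G)
    have happ := exc_theta_apply C N ν hCN hcard hnorm hinv hTI y
    rw [happ] at h2
    have hz := unit_add_inv_of_cube (hcube y) hy
    linear_combination h2 + hz

end Cfsg.Agent.Lib.Helper3.S3701
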